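import Mathlib
import Cfsg.Agent.Lib.Perm27.Zass

/-!
# A TI-subgroup inverted by an involution: Bender's coset count (helper79)
-/

set_option autoImplicit false

namespace H79.TC

open MulAction

variable {G : Type*} [Group G]

/-- The hypotheses of the theorem. -/
structure Hyp (M N : Subgroup G) (z : G) : Prop where
  ne_bot : M ≠ ⊥
  le : M ≤ N
  conj : ∀ n ∈ N, ∀ x ∈ M, n * x * n⁻¹ ∈ M
  ti : ∀ g x, x ∈ M → x ≠ 1 → g * x * g⁻¹ ∈ M → g ∈ N
  zz : z * z = 1
  z1 : z ≠ 1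
  zN : z ∈ N
  fac : ∀ n ∈ N, ∃ x ∈ M, ∃ c ∈ N, c * z = z * c ∧ n = x * c
  odd : ∀ x ∈ M, x ≠ 1 → ∀ t, t * t = 1 → t * x = x * t → t = 1

theorem inv_eq {t : G} (h : t * t = 1) : t⁻¹ = t := inv_eq_of_mul_eq_one_right h

namespace Hyp

variable {M N : Subgroup G} {z : G}

theorem sq (h : Hyp M N z) {x : G} (hx : x ∈ M) (h2 : x * x = 1) : x = 1 := by
  by_contra h1
  exact h1 (h.odd x hx h1 x h2 rfl)

theorem eq_one (h : Hyp M N z) {x t : G} (hx : x ∈ M) (ht : t * t = 1) (ht1 : t ≠ 1)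
    (hc : t * x = x * t) : x = 1 := by
  by_contra h1
  exact ht1 (h.odd x hx h1 t ht hc)

variable [Finite G]

theorem inv_comm (h : Hyp M N z) {t : G} (htN : t ∈ N) (ht : t * t = 1) (ht1 : t ≠ 1) :
    (∀ x ∈ M, t * x * t = x⁻¹) ∧ ∀ x ∈ M, ∀ y ∈ M, x * y = y * x := by
  let f : M →* M := H27.conjOn M t (h.conj t htN)
  have hf : ∀ x : M, (f x : G) = t * x * t := fun x => by
    show t * x * t⁻¹ = _
    rw [inv_eq ht]
  have h1 : MonoidHom.FixedPointFree f := fun x hx => by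
    have := congrArg Subtype.val hx
    rw [hf] at this
    refine Subtype.ext (h.eq_one x.2 ht ht1 ?_)
    calc t * x = t * x * t * t := by rw [mul_assoc, ht, mul_one]
      _ = x * t := by rw [this]
  have h2 : Function.Involutive f := fun x => Subtype.ext (by
    rw [hf, hf]
    calc t * (t * x * t) * t = (t * t) * x * (t * t) := by group
      _ = x := by rw [ht]; group)
  refine ⟨fun x hx => ?_, fun x hx y hy => ?_⟩
  · have := congrArg Subtype.val (congrFun (h1.coe_eq_inv_of_involutive h2) ⟨x, hx⟩)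
    rwa [hf] at this
  · exact congrArg Subtype.val (h1.commute_all_of_involutive h2 ⟨x, hx⟩ ⟨y, hy⟩).eq

theorem inv (h : Hyp M N z) {t : G} (htN : t ∈ N) (ht : t * t = 1) (ht1 : t ≠ 1) {x : G}
    (hx : x ∈ M) : t * x * t = x⁻¹ := (h.inv_comm htN ht ht1).1 x hx

theorem comm (h : Hyp M N z) {x y : G} (hx : x ∈ M) (hy : y ∈ M) : x * y = y * x :=
  (h.inv_comm h.zN h.zz h.z1).2 x hx y hy

theorem invz (h : Hyp M N z) {x : G} (hx : x ∈ M) : z * x * z = x⁻¹ := h.inv h.zN h.zz h.z1 hx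

omit [Finite G] in
theorem z_notMem (h : Hyp M N z) : z ∉ M := fun hz => h.z1 (h.sq hz h.zz)

theorem sqrt (h : Hyp M N z) {x : G} (hx : x ∈ M) : ∃ y ∈ M, y * y = x := by
  have hi : Function.Injective (fun y : M => y * y) := by
    rintro ⟨a, ha⟩ ⟨b, hb⟩ hab
    have hab' : a * a = b * b := congrArg Subtype.val hab
    have : b⁻¹ * a = 1 := by
      apply h.sq (M.mul_mem (M.inv_mem hb) ha)
      calc b⁻¹ * a * (b⁻¹ * a) = b⁻¹ * (a * b⁻¹) * a := by group
        _ = b⁻¹ * (b⁻¹ * a) * a := by rw [h.comm ha (M.inv_mem hb)]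
        _ = b⁻¹ * b⁻¹ * (a * a) := by group
        _ = 1 := by rw [hab']; group
    exact Subtype.ext (inv_mul_eq_one.1 this).symm
  obtain ⟨y, hy⟩ := (Finite.injective_iff_surjective.1 hi) ⟨x, hx⟩
  exact ⟨y, y.2, congrArg Subtype.val hy⟩

theorem invol_mem (h : Hyp M N z) {t : G} (htN : t ∈ N) (ht : t * t = 1) (ht1 : t ≠ 1) :
    t * z ∈ M := by
  obtain ⟨x, hx, c, hcN, hcz, e⟩ := h.fac (t * z) (N.mul_mem htN h.zN)
  have hcM : ∀ y ∈ M, c * y = y * c := fun y hy => by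
    have h1 : t * z * y = y * (t * z) := by
      calc t * z * y = t * (z * y * z) * t * (t * z) := by
            rw [show t * (z * y * z) * t * (t * z) = t * z * y * z * (t * t) * z by group, ht,
              mul_one, mul_assoc _ z z, h.zz, mul_one]
        _ = y * (t * z) := by rw [h.invz hy, h.inv htN ht ht1 (M.inv_mem hy), inv_inv]
    rw [e] at h1
    calc c * y = x⁻¹ * (x * c * y) := by group
      _ = x⁻¹ * (y * x) * c := by rw [h1]; group
      _ = y * c := by rw [h.comm hy hx]; group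
  have ht' : t = x * c * z := by rw [← e, mul_assoc, h.zz, mul_one]
  have hcc : c * c = 1 := by
    calc c * c = x * (c * x⁻¹) * (z * z) * c := by rw [hcM _ (M.inv_mem hx), h.zz]; group
      _ = x * c * (z * x * z) * z * (z * c) := by rw [h.invz hx]; group
      _ = x * c * z * x * (z * z) * (c * z) := by rw [hcz]; group
      _ = t * t := by rw [h.zz, ht']; group
      _ = 1 := ht
  obtain ⟨⟨y, hy⟩, hy1⟩ := Subgroup.ne_bot_iff_exists_ne_one.1 h.ne_bot
  have hy1' : y ≠ 1 := fun e => hy1 (Subtype.ext e)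
  rw [e, h.odd y hy hy1' c hcc (hcM y hy), mul_one]
  exact hx

theorem invol_conj (h : Hyp M N z) {t : G} (htN : t ∈ N) (ht : t * t = 1) (ht1 : t ≠ 1) :
    ∃ y ∈ M, t = y * z * y⁻¹ := by
  obtain ⟨y, hy, e⟩ := h.sqrt (h.invol_mem htN ht ht1)
  refine ⟨y, hy, ?_⟩
  calc t = t * z * z := by rw [mul_assoc, h.zz, mul_one]
    _ = y * (z * y⁻¹ * z) * z := by rw [← e, h.invz (M.inv_mem hy), inv_inv]
    _ = y * z * y⁻¹ := by rw [mul_assoc, mul_assoc _ z z, h.zz]; group

theorem of_invol (h : Hyp M N z) {t : G} (htN : t ∈ N) (ht : t * t = 1) (ht1 : t ≠ 1) :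
    Hyp M N t := by
  refine ⟨h.ne_bot, h.le, h.conj, h.ti, ht, ht1, htN, fun n hn => ?_, h.odd⟩
  obtain ⟨y, hy, rfl⟩ := h.invol_conj htN ht ht1
  have hyN := h.le hy
  obtain ⟨x, hx, c, hc, hcz, e⟩ := h.fac (y⁻¹ * n * y) (N.mul_mem (N.mul_mem (N.inv_mem hyN) hn) hyN)
  refine ⟨y * x * y⁻¹, h.conj y hyN x hx, y * c * y⁻¹, N.mul_mem (N.mul_mem hyN hc) (N.inv_mem hyN),
    ?_, ?_⟩
  · calc y * c * y⁻¹ * (y * z * y⁻¹) = y * (c * z) * y⁻¹ := by group
      _ = _ := by rw [hcz]; group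
  · calc n = y * (y⁻¹ * n * y) * y⁻¹ := by group
      _ = _ := by rw [e]; group

theorem comm_mod (h : Hyp M N z) {n : G} (hn : n ∈ N) : z * n * z * n⁻¹ ∈ M := by
  obtain ⟨x, hx, c, -, hcz, rfl⟩ := h.fac n hn
  have : z * (x * c) * z * (x * c)⁻¹ = x⁻¹ * x⁻¹ := by
    calc z * (x * c) * z * (x * c)⁻¹ = z * x * (c * z) * c⁻¹ * x⁻¹ := by group
      _ = (z * x * z) * x⁻¹ := by rw [hcz]; group
      _ = _ := by rw [h.invz hx]
  rw [this]
  exact M.mul_mem (M.inv_mem hx) (M.inv_mem hx)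

/-- Commuting involutions of `N` are equal. -/
theorem invol_eq (h : Hyp M N z) {t t' : G} (htN : t ∈ N) (ht : t * t = 1) (ht1 : t ≠ 1)
    (htN' : t' ∈ N) (ht' : t' * t' = 1) (ht1' : t' ≠ 1) (hc : t * t' = t' * t) : t = t' := by
  have h1 := (h.of_invol htN' ht' ht1').invol_mem htN ht ht1
  have h2 : t * t' = 1 := h.sq h1 (by
    calc t * t' * (t * t') = t * (t' * t) * t' := by group
      _ = (t * t) * (t' * t') := by rw [← hc]; group
      _ = 1 := by rw [ht, ht', one_mul])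
  rw [← inv_eq ht, inv_mul_eq_one] at h2
  exact h2

omit [Finite G] in
theorem un (h : Hyp M N z) {u x : G} (hu : u * u = 1) (huN : u ∉ N) (hx : x ∈ M)
    (h2 : u * x * (u * x) = 1) : x = 1 := by
  by_contra h1
  apply huN
  refine h.ti u x hx h1 ?_
  have : u * x * u⁻¹ = x⁻¹ := by
    rw [inv_eq hu, eq_inv_iff_mul_eq_one, ← h2]; group
  rw [this]
  exact M.inv_mem hx

/-- Bender's count: every coset of `M` outside `N` contains an involution. -/
theorem ex_of_lt (h : Hyp M N z) (hi : M.index < Nat.card {g : G // orderOf g = 2}) :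
    ∀ g ∉ N, ∃ x ∈ M, g * x * (g * x) = 1 := by
  classical
  intro g hg
  by_contra hne
  push Not at hne
  have hsq : ∀ t : {g : G // orderOf g = 2}, (t : G) * t = 1 := fun t => by
    have := pow_orderOf_eq_one (t : G)
    rwa [t.2, pow_two] at this
  have hn1 : ∀ t : {g : G // orderOf g = 2}, (t : G) ≠ 1 := fun t e => by
    have := t.2
    rw [e, orderOf_one] at this
    omega
  let ψ : {g : G // orderOf g = 2} → G ⧸ M := fun t =>
    if (t : G) ∈ N then ((t * z * g : G) : G ⧸ M) else ((t : G) : G ⧸ M)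
  have mixed : ∀ s t : {g : G // orderOf g = 2}, (s : G) ∈ N →
      ((s * z * g : G) : G ⧸ M) = ((t : G) : G ⧸ M) → False := fun s t hs e => by
    rw [QuotientGroup.eq] at e
    have hx := h.invol_mem hs (hsq s) (hn1 s)
    apply hne _ (M.mul_mem e hx)
    calc g * ((s * z * g)⁻¹ * t * (s * z)) * (g * ((s * z * g)⁻¹ * t * (s * z)))
        = (s * z)⁻¹ * (t * t) * (s * z) := by group
      _ = 1 := by rw [hsq t]; group
  have hψ : Function.Injective ψ := by
    intro s t e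
    by_cases hs : (s : G) ∈ N <;> by_cases ht : (t : G) ∈ N <;> simp only [ψ, hs, ht, if_true,
      if_false] at e
    · rw [QuotientGroup.eq] at e
      have hx := M.mul_mem (M.inv_mem (h.invol_mem hs (hsq s) (hn1 s)))
        (h.invol_mem ht (hsq t) (hn1 t))
      by_cases h1 : (s * z : G)⁻¹ * (t * z) = 1
      · rw [inv_mul_eq_one] at h1
        exact Subtype.ext (mul_right_cancel h1)
      · exfalso
        apply hg
        rw [← N.inv_mem_iff]
        refine h.ti g⁻¹ _ hx h1 ?_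
        convert e using 1
        group
    · exact (mixed s t hs e).elim
    · exact (mixed t s ht e.symm).elim
    · rw [QuotientGroup.eq] at e
      have := h.un (hsq s) hs e (by rw [mul_inv_cancel_left, hsq t])
      exact Subtype.ext (inv_mul_eq_one.1 this)
  have := Nat.card_le_card_of_injective ψ hψ
  rw [Subgroup.index] at hi
  omega

end Hyp

/-- The hypotheses after the count. -/
structure Hyp2 (M N : Subgroup G) (z : G) : Prop extends Hyp M N z where
  ex : ∀ g ∉ N, ∃ x ∈ M, g * x * (g * x) = 1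
  ne_top : ∃ g, g ∉ N

namespace Hyp2

variable {M N : Subgroup G} {z : G} [Finite G]

theorem of_invol (h : Hyp2 M N z) {t : G} (htN : t ∈ N) (ht : t * t = 1) (ht1 : t ≠ 1) :
    Hyp2 M N t := ⟨h.toHyp.of_invol htN ht ht1, h.ex, h.ne_top⟩

omit [Finite G] in
theorem exN (h : Hyp2 M N z) {u n : G} (hu : u * u = 1) (huN : u ∉ N) (hn : n ∈ N) :
    ∃ x ∈ M, u * (n * x) * u = (n * x)⁻¹ := by
  obtain ⟨x, hx, e⟩ := h.ex (u * n) (fun e => huN ((N.mul_mem_cancel_right hn).1 e))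
  refine ⟨x, hx, ?_⟩
  rw [eq_inv_iff_mul_eq_one, ← e]; group

theorem exists_t (h : Hyp2 M N z) {u : G} (hu : u * u = 1) (huN : u ∉ N) :
    ∃ t ∈ N, t * t = 1 ∧ t ≠ 1 ∧ u * t = t * u := by
  obtain ⟨x, hx, e⟩ := h.exN hu huN h.zN
  have h1 : z * x * (z * x) = 1 := by
    rw [← mul_assoc, h.invz hx, inv_mul_cancel]
  refine ⟨z * x, N.mul_mem h.zN (h.le hx), h1, fun e1 => h.z_notMem ?_, ?_⟩
  · rw [eq_inv_of_mul_eq_one_left e1]
    exact M.inv_mem hx
  · rw [inv_eq h1] at e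
    calc u * (z * x) = u * (z * x) * u * u := by rw [mul_assoc _ u u, hu, mul_one]
      _ = _ := by rw [e]

theorem DM (h : Hyp2 M N z) {u y : G} (hu : u * u = 1) (huN : u ∉ N) (hy : y ∈ M)
    (hyu : u * y * u ∈ N) : y = 1 := by
  obtain ⟨t, htN, ht, ht1, hut⟩ := h.exists_t hu huN
  have h1 := (h.toHyp.of_invol htN ht ht1).comm_mod hyu
  have h2 : t * (u * y * u) * t * (u * y * u)⁻¹ = u * (y * y)⁻¹ * u⁻¹ := by
    calc t * (u * y * u) * t * (u * y * u)⁻¹ = (t * u) * y * (u * t) * (u * y * u)⁻¹ := by group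
      _ = u * (t * y * t) * u * (u * y * u)⁻¹ := by rw [hut]; nth_rewrite 1 [← hut]; group
      _ = _ := by rw [h.inv htN ht ht1 hy]; group
  rw [h2] at h1
  by_contra hy1
  exact huN (h.ti u _ (M.inv_mem (M.mul_mem hy hy))
    (fun e => hy1 (h.sq hy (inv_eq_one.1 e))) h1)

theorem D_comm (h : Hyp2 M N z) {u t d : G} (hu : u * u = 1) (huN : u ∉ N) (htN : t ∈ N)
    (ht : t * t = 1) (ht1 : t ≠ 1) (hut : u * t = t * u) (hd : d ∈ N) (hdu : u * d * u ∈ N) :
    t * d = d * t := by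
  have h1 := (h.toHyp.of_invol htN ht ht1).comm_mod hd
  have h2 : u * (t * d * t * d⁻¹) * u = t * (u * d * u) * t * (u * d * u)⁻¹ := by
    calc u * (t * d * t * d⁻¹) * u = (u * t) * d * t * d⁻¹ * u := by group
      _ = t * u * d * (u * u) * t * d⁻¹ * u⁻¹ := by rw [hut, hu, inv_eq hu]; group
      _ = t * u * d * u * (u * t) * d⁻¹ * u⁻¹ := by group
      _ = t * u * d * u * t * u⁻¹ * d⁻¹ * u⁻¹ := by rw [hut, inv_eq hu]; group
      _ = _ := by group
  have h3 := h.DM hu huN h1 (by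
    rw [h2]
    exact N.mul_mem (N.mul_mem (N.mul_mem htN hdu) htN) (N.inv_mem hdu))
  calc t * d = (t * d * t * d⁻¹) * d * t⁻¹ := by group
    _ = d * t := by rw [h3, inv_eq ht, one_mul]

theorem inv_C (h : Hyp2 M N z) {u t c : G} (hu : u * u = 1) (huN : u ∉ N) (htN : t ∈ N)
    (ht : t * t = 1) (ht1 : t ≠ 1) (hut : u * t = t * u) (hc : c ∈ N) (hct : t * c = c * t) :
    u * c * u = c⁻¹ := by
  obtain ⟨x, hx, e⟩ := h.exN hu huN hc
  have hcx := N.mul_mem hc (h.le hx)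
  have h1 := h.D_comm hu huN htN ht ht1 hut hcx (e ▸ N.inv_mem hcx)
  have h2 : x = 1 := h.eq_one hx ht ht1 (by
    calc t * x = c⁻¹ * (c * t) * x := by group
      _ = c⁻¹ * (t * (c * x)) := by rw [← hct]; group
      _ = x * t := by rw [h1]; group)
  rwa [h2, mul_one] at e

theorem inv_D (h : Hyp2 M N z) {u d : G} (hu : u * u = 1) (huN : u ∉ N) (hd : d ∈ N)
    (hdu : u * d * u ∈ N) : u * d * u = d⁻¹ := by
  obtain ⟨t, htN, ht, ht1, hut⟩ := h.exists_t hu huN
  exact h.inv_C hu huN htN ht ht1 hut hd (h.D_comm hu huN htN ht ht1 hut hd hdu)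

theorem comm_of_D (h : Hyp2 M N z) {u t : G} (hu : u * u = 1) (huN : u ∉ N) (htN : t ∈ N)
    (ht : t * t = 1) (htu : u * t * u ∈ N) : u * t = t * u := by
  have := h.inv_D hu huN htN htu
  rw [inv_eq ht] at this
  calc u * t = u * t * u * u := by rw [mul_assoc _ u u, hu, mul_one]
    _ = _ := by rw [this]

omit [Finite G] in
theorem exists_u (h : Hyp2 M N z) {g : G} (hg : g ∉ N) :
    ∃ u, u * u = 1 ∧ u ∉ N ∧ ∃ x ∈ M, u = g * x := by
  obtain ⟨x, hx, e⟩ := h.ex g hg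
  exact ⟨g * x, e, fun e1 => hg ((N.mul_mem_cancel_right (h.le hx)).1 e1), x, hx, rfl⟩

/-- Elements of `C(z)` outside `N` are involutions. -/
theorem E_sq (h : Hyp2 M N z) {g : G} (hg : g ∉ N) (hgz : g * z = z * g) : g * g = 1 := by
  obtain ⟨u, hu, huN, x, hx, e⟩ := h.exists_u hg
  have h1 : u * z * u = x⁻¹ * z * x := by
    calc u * z * u = u⁻¹ * z * u := by rw [inv_eq hu]
      _ = x⁻¹ * (g⁻¹ * (z * g)) * x := by rw [e]; group
      _ = _ := by rw [← hgz]; group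
  have hxN := h.le hx
  have h2 := h.inv_D hu huN h.zN (h1 ▸ N.mul_mem (N.mul_mem (N.inv_mem hxN) h.zN) hxN)
  rw [h1, inv_eq h.zz] at h2
  have h3 : x = 1 := h.eq_one hx h.zz h.z1 (by
    calc z * x = x * (x⁻¹ * z * x) := by group
      _ = _ := by rw [h2])
  rw [h3, mul_one] at e
  rw [← e, hu]

theorem E_inv (h : Hyp2 M N z) {g c : G} (hg : g ∉ N) (hgz : g * z = z * g) (hc : c ∈ N)
    (hcz : c * z = z * c) : g * c * g = c⁻¹ :=
  h.inv_C (h.E_sq hg hgz) hg h.zN h.zz h.z1 hgz hc hcz.symm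

/-- An element of `N` centralised by an element outside `N` has order at most two. -/
theorem sq_of_cent (h : Hyp2 M N z) {g c : G} (hg : g ∉ N) (hc : c ∈ N) (hgc : g * c = c * g) :
    c * c = 1 := by
  obtain ⟨u, hu, huN, x, hx, e⟩ := h.exists_u hg
  have h1 : u * c * u = x⁻¹ * c * x := by
    calc u * c * u = u⁻¹ * c * u := by rw [inv_eq hu]
      _ = x⁻¹ * (g⁻¹ * (c * g)) * x := by rw [e]; group
      _ = _ := by rw [← hgc]; group
  have hxN := h.le hx
  have h2 := h.inv_D hu huN hc (h1 ▸ N.mul_mem (N.mul_mem (N.inv_mem hxN) hc) hxN)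
  have h3 : (c * c)⁻¹ ∈ M := by
    have : (c * c)⁻¹ = x⁻¹ * (c * x * c⁻¹) := by
      calc (c * c)⁻¹ = c⁻¹ * c⁻¹ := by group
        _ = _ := by nth_rewrite 1 [← h2]; rw [h1]; group
    rw [this]
    exact M.mul_mem (M.inv_mem hx) (h.conj c hc x hx)
  refine h.DM hu huN (M.inv_mem_iff.1 h3) ?_
  have : u * (c * c) * u = (u * c * u) * (u * c * u) := by
    calc u * (c * c) * u = u * c * (u * u) * c * u := by rw [hu]; group
      _ = _ := by group
  rw [this, h2]
  exact N.mul_mem (N.inv_mem hc) (N.inv_mem hc)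

end Hyp2

end H79.TC
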