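import Mathlib
import Cfsg.Agent.Lib.TICount.Basic

/-!
# The action on the conjugates of the TI-subgroup (helper79)
-/

set_option autoImplicit false

namespace H79.TC

open MulAction

variable {G : Type*} [Group G]

theorem smul_mk_iff {N : Subgroup G} (w g : G) :
    w • (g : G ⧸ N) = (g : G ⧸ N) ↔ g⁻¹ * w * g ∈ N := by
  rw [MulAction.Quotient.smul_mk, smul_eq_mul, eq_comm, QuotientGroup.eq, mul_assoc]

theorem smul_one_iff {N : Subgroup G} (w : G) :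
    w • ((1 : G) : G ⧸ N) = ((1 : G) : G ⧸ N) ↔ w ∈ N := by
  rw [smul_mk_iff]; simp

theorem smul_one' {N : Subgroup G} (w : G) : w • ((1 : G) : G ⧸ N) = (w : G ⧸ N) := by
  rw [MulAction.Quotient.smul_mk, smul_eq_mul, mul_one]

theorem mk_eq_one_iff {N : Subgroup G} (g : G) : (g : G ⧸ N) = ((1 : G) : G ⧸ N) ↔ g ∈ N := by
  rw [eq_comm, QuotientGroup.eq]; simp

theorem conj_sq {t : G} (g : G) (ht : t * t = 1) : g⁻¹ * t * g * (g⁻¹ * t * g) = 1 := by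
  calc g⁻¹ * t * g * (g⁻¹ * t * g) = g⁻¹ * (t * t) * g := by group
    _ = 1 := by rw [ht]; group

theorem conj_ne {t : G} (g : G) (ht : t ≠ 1) : g⁻¹ * t * g ≠ 1 := fun e => ht (by
  calc t = g * (g⁻¹ * t * g) * g⁻¹ := by group
    _ = 1 := by rw [e]; group)

theorem comm_of_conj {s t : G} (g : G) (h : g⁻¹ * s * g * (g⁻¹ * t * g) = g⁻¹ * t * g * (g⁻¹ * s * g)) :
    s * t = t * s := by
  calc s * t = g * (g⁻¹ * s * g * (g⁻¹ * t * g)) * g⁻¹ := by group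
    _ = _ := by rw [h]; group

theorem conj_comm {s t : G} (g : G) (h : s * t = t * s) :
    g⁻¹ * s * g * (g⁻¹ * t * g) = g⁻¹ * t * g * (g⁻¹ * s * g) := by
  calc g⁻¹ * s * g * (g⁻¹ * t * g) = g⁻¹ * (s * t) * g := by group
    _ = _ := by rw [h]; group

theorem conj_inj {s t : G} (g : G) (h : g⁻¹ * s * g = g⁻¹ * t * g) : s = t :=
  mul_left_cancel (mul_right_cancel h)

namespace Hyp2

variable {M N : Subgroup G} {z : G} [Finite G]

omit [Finite G] in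
theorem exists_mk (h : Hyp2 M N z) {β : G ⧸ N} (hβ : β ≠ ((1 : G) : G ⧸ N)) :
    ∃ u : G, u * u = 1 ∧ u ∉ N ∧ β = (u : G ⧸ N) := by
  obtain ⟨g, rfl⟩ := QuotientGroup.mk_surjective β
  obtain ⟨u, hu, huN, x, hx, e⟩ := h.exists_u (mt (mk_eq_one_iff g).2 hβ)
  refine ⟨u, hu, huN, QuotientGroup.eq.2 ?_⟩
  rw [e, inv_mul_cancel_left]
  exact h.le hx

theorem semireg (h : Hyp2 M N z) {β : G ⧸ N} (hβ : β ≠ ((1 : G) : G ⧸ N)) {x : G} (hx : x ∈ M)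
    (e : x • β = β) : x = 1 := by
  obtain ⟨u, hu, huN, rfl⟩ := h.exists_mk hβ
  rw [smul_mk_iff, inv_eq hu] at e
  exact h.DM hu huN hx e

theorem G1 (h : Hyp2 M N z) {β : G ⧸ N} {t : G} (ht : t * t = 1) (ht1 : t ≠ 1) (e : t • β = β) :
    IsConj z t := by
  obtain ⟨g, rfl⟩ := QuotientGroup.mk_surjective β
  rw [smul_mk_iff] at e
  obtain ⟨y, -, hy⟩ := h.invol_conj e (conj_sq g ht) (conj_ne g ht1)
  refine isConj_iff.2 ⟨g * y, ?_⟩
  calc g * y * z * (g * y)⁻¹ = g * (y * z * y⁻¹) * g⁻¹ := by group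
    _ = t := by rw [← hy]; group

theorem G2 (h : Hyp2 M N z) {β : G ⧸ N} {u : G} (hu : u * u = 1) (e : u • β ≠ β) :
    ∃ t : G, t * t = 1 ∧ t ≠ 1 ∧ t • β = β ∧ u * t = t * u := by
  obtain ⟨g, rfl⟩ := QuotientGroup.mk_surjective β
  rw [Ne, smul_mk_iff] at e
  obtain ⟨t, htN, ht, ht1, hc⟩ := h.exists_t (conj_sq g hu) e
  refine ⟨g⁻¹⁻¹ * t * g⁻¹, conj_sq _ ht, conj_ne _ ht1, ?_, comm_of_conj g ?_⟩
  · rw [smul_mk_iff]
    convert htN using 1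
    group
  · convert hc using 2 <;> group

theorem G4 (h : Hyp2 M N z) {β : G ⧸ N} {u t : G} (hu : u * u = 1) (e : u • β ≠ β)
    (ht : t * t = 1) (h1 : t • β = β) (h2 : t • u • β = u • β) : u * t = t * u := by
  obtain ⟨g, rfl⟩ := QuotientGroup.mk_surjective β
  rw [Ne, smul_mk_iff] at e
  rw [smul_mk_iff] at h1
  rw [MulAction.Quotient.smul_mk, smul_eq_mul, smul_mk_iff] at h2
  refine comm_of_conj g (h.comm_of_D (conj_sq g hu) e h1 (conj_sq g ht) ?_)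
  convert h2 using 1
  rw [mul_inv_rev, inv_eq hu]
  group

theorem G5 (h : Hyp2 M N z) {β : G ⧸ N} {t t' : G} (ht : t * t = 1) (ht1 : t ≠ 1)
    (ht' : t' * t' = 1) (ht1' : t' ≠ 1) (h1 : t • β = β) (h2 : t' • β = β)
    (hc : t * t' = t' * t) : t = t' := by
  obtain ⟨g, rfl⟩ := QuotientGroup.mk_surjective β
  rw [smul_mk_iff] at h1 h2
  exact conj_inj g (h.invol_eq h1 (conj_sq g ht) (conj_ne g ht1) h2 (conj_sq g ht')
    (conj_ne g ht1') (conj_comm g hc))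

omit [Finite G] in
theorem exists_swap (h : Hyp2 M N z) {β γ : G ⧸ N} (hne : β ≠ γ) :
    ∃ u : G, u * u = 1 ∧ u • β = γ := by
  obtain ⟨g, rfl⟩ := QuotientGroup.mk_surjective β
  have h1 : g⁻¹ • γ ≠ ((1 : G) : G ⧸ N) := fun e => hne (by
    rw [inv_smul_eq_iff, smul_one'] at e
    exact e.symm)
  obtain ⟨u, hu, -, e⟩ := h.exists_mk h1
  refine ⟨g⁻¹⁻¹ * u * g⁻¹, conj_sq _ hu, ?_⟩
  rw [inv_smul_eq_iff] at e
  rw [e, MulAction.Quotient.smul_mk, MulAction.Quotient.smul_mk]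
  congr 1
  simp

theorem G3 (h : Hyp2 M N z) {β γ : G ⧸ N} (hne : β ≠ γ) {t t' : G} (ht : t * t = 1) (ht1 : t ≠ 1)
    (ht' : t' * t' = 1) (ht1' : t' ≠ 1) (h1 : t • β = β) (h2 : t' • β = β) (h3 : t • γ = γ)
    (h4 : t' • γ = γ) : t = t' := by
  obtain ⟨u, hu, rfl⟩ := h.exists_swap hne
  have e1 := h.G4 hu hne.symm ht h1 h3
  have e2 := h.G4 hu hne.symm ht' h2 h4
  obtain ⟨g, rfl⟩ := QuotientGroup.mk_surjective β
  have e : ¬ g⁻¹ * u * g ∈ N := fun e => hne.symm ((smul_mk_iff u g).2 e)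
  rw [smul_mk_iff] at h1 h2
  have h5 := (h.toHyp.of_invol h2 (conj_sq g ht') (conj_ne g ht1')).invol_mem h1 (conj_sq g ht)
    (conj_ne g ht1)
  have h6 := h.eq_one h5 (conj_sq g hu) (fun e1 => e (e1 ▸ N.one_mem)) (by
    rw [← mul_assoc, conj_comm g e1, mul_assoc, conj_comm g e2, mul_assoc _ (g⁻¹ * t' * g)])
  rw [← inv_eq (conj_sq g ht), inv_mul_eq_one] at h6
  exact conj_inj g h6

theorem fix_pt (h : Hyp2 M N z) {β : G ⧸ N} (hβ : β ≠ ((1 : G) : G ⧸ N)) (e : z • β = β) :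
    ∃ u : G, u * u = 1 ∧ u ∉ N ∧ u * z = z * u ∧ β = (u : G ⧸ N) := by
  obtain ⟨u, hu, huN, rfl⟩ := h.exists_mk hβ
  rw [smul_mk_iff, inv_eq hu] at e
  exact ⟨u, hu, huN, h.comm_of_D hu huN h.zN h.zz e, rfl⟩

theorem orbit_fix (h : Hyp2 M N z) {β : G ⧸ N} (hβ : β ≠ ((1 : G) : G ⧸ N)) :
    ∃ y ∈ M, ∃ γ : G ⧸ N, γ ≠ ((1 : G) : G ⧸ N) ∧ z • γ = γ ∧ β = y • γ := by
  obtain ⟨u, hu, huN, rfl⟩ := h.exists_mk hβ
  obtain ⟨t, htN, ht, ht1, hc⟩ := h.exists_t hu huN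
  obtain ⟨y, hy, e⟩ := h.invol_conj htN ht ht1
  have h1 : t • (u : G ⧸ N) = u := by
    rw [smul_mk_iff, mul_assoc, ← hc, inv_mul_cancel_left]
    exact htN
  refine ⟨y, hy, y⁻¹ • (u : G ⧸ N), fun e1 => hβ ?_, ?_, by simp⟩
  · rw [inv_smul_eq_iff] at e1
    rw [e1, smul_one_iff]
    exact h.le hy
  · conv_rhs => rw [← h1, e]
    rw [← mul_smul, ← mul_smul]
    congr 1
    group

theorem fix_unique (h : Hyp2 M N z) {β γ : G ⧸ N} (hγ : γ ≠ ((1 : G) : G ⧸ N)) (e1 : z • β = β)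
    (e2 : z • γ = γ) {w : G} (hw : w ∈ M) (e : w • β = γ) : w = 1 := by
  have hwN := h.le hw
  have h1 := h.G3 hγ h.zz h.z1 (conj_sq w⁻¹ h.zz) (conj_ne w⁻¹ h.z1) e2 (by
      rw [inv_inv, mul_smul, mul_smul, ← e, inv_smul_smul, e1])
    ((smul_one_iff z).2 h.zN) ((smul_one_iff _).2
      (N.mul_mem (N.mul_mem (N.inv_mem (N.inv_mem hwN)) h.zN) (N.inv_mem hwN)))
  refine h.eq_one hw h.zz h.z1 ?_
  conv_lhs => rw [h1]
  group

/-- The number of points. -/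
theorem card_pts (h : Hyp2 M N z) : Nat.card (G ⧸ N) =
    1 + Nat.card M * Nat.card {β : G ⧸ N // β ≠ ((1 : G) : G ⧸ N) ∧ z • β = β} := by
  have h1 : Nat.card (M × {β : G ⧸ N // β ≠ ((1 : G) : G ⧸ N) ∧ z • β = β}) =
      Nat.card {β : G ⧸ N // β ≠ ((1 : G) : G ⧸ N)} := by
    refine Nat.card_eq_of_bijective (fun p => ⟨(p.1 : G) • p.2.1, fun e => p.2.2.1 ?_⟩) ⟨?_, ?_⟩
    · rw [smul_eq_iff_eq_inv_smul] at e
      rw [e, smul_one_iff]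
      exact N.inv_mem (h.le p.1.2)
    · rintro ⟨⟨x, hx⟩, ⟨β, hβ, hzβ⟩⟩ ⟨⟨y, hy⟩, ⟨γ, hγ, hzγ⟩⟩ e
      have e' : x • β = y • γ := congrArg Subtype.val e
      have e2 : (y⁻¹ * x) • β = γ := by rw [mul_smul, e', inv_smul_smul]
      have e3 := h.fix_unique hγ hzβ hzγ (M.mul_mem (M.inv_mem hy) hx) e2
      rw [e3, one_smul] at e2
      rw [inv_mul_eq_one] at e3
      subst e2 e3
      rfl
    · rintro ⟨β, hβ⟩
      obtain ⟨y, hy, γ, hγ, hz, rfl⟩ := h.orbit_fix hβ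
      exact ⟨⟨⟨y, hy⟩, ⟨γ, hγ, hz⟩⟩, rfl⟩
  rw [Nat.card_prod] at h1
  rw [h1]
  classical
  have := Fintype.ofFinite (G ⧸ N)
  rw [Nat.card_eq_fintype_card, Nat.card_eq_fintype_card, Fintype.card_subtype_compl,
    Fintype.card_subtype_eq]
  have := Fintype.card_pos_iff.2 ⟨((1 : G) : G ⧸ N)⟩
  omega

theorem exists_fix (h : Hyp2 M N z) : ∃ β : G ⧸ N, β ≠ ((1 : G) : G ⧸ N) ∧ z • β = β := by
  obtain ⟨g, hg⟩ := h.ne_top
  obtain ⟨-, -, γ, h1, h2, -⟩ := h.orbit_fix (mt (mk_eq_one_iff g).1 hg)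
  exact ⟨γ, h1, h2⟩

/-- If `z` fixes three points then `C_N(z) = ⟨z⟩`. -/
theorem C_two (h : Hyp2 M N z) {β γ : G ⧸ N} (hβ : β ≠ ((1 : G) : G ⧸ N))
    (hγ : γ ≠ ((1 : G) : G ⧸ N)) (hne : β ≠ γ) (e1 : z • β = β) (e2 : z • γ = γ) {c : G}
    (hc : c ∈ N) (hcz : c * z = z * c) : c = 1 ∨ c = z := by
  obtain ⟨u, hu, huN, huz, rfl⟩ := h.fix_pt hβ e1
  obtain ⟨v, hv, hvN, hvz, rfl⟩ := h.fix_pt hγ e2
  have h1 : u * v ∉ N := fun e => hne (QuotientGroup.eq.2 (by rwa [inv_eq hu]))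
  have h2 := h.E_inv huN huz (N.inv_mem hc) (by
    rw [inv_mul_eq_iff_eq_mul, ← mul_assoc, hcz, mul_inv_cancel_right])
  have h3 := h.E_inv hvN hvz hc hcz
  have h4 := h.sq_of_cent h1 hc (by
    calc u * v * c = u * (v * c * v) * u * (u * v) := by
          rw [show u * (v * c * v) * u * (u * v) = u * v * c * v * (u * u) * v by group, hu,
            mul_one, mul_assoc _ v v, hv, mul_one]
      _ = _ := by rw [h3, h2, inv_inv])
  by_cases h5 : c = 1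
  · exact Or.inl h5
  · exact Or.inr (h.invol_eq hc h4 h5 h.zN h.zz h.z1 hcz)

end Hyp2

end H79.TC
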