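import Mathlib
import Cfsg.Agent.Lib.TICount.Pts
import Cfsg.Agent.Lib.Perm27.Sharp3
import Cfsg.Agent.S0738
import Cfsg.Agent.S0741
import Cfsg.Agent.S0742

/-!
# The doubly transitive case (helper79)
-/

set_option autoImplicit false

namespace H79.TC

open MulAction

variable {G : Type*} [Group G]

theorem charP_of_card {F : Type} [Field F] [Fintype F] {p f : ℕ} (hp : p.Prime)
    (hF : Fintype.card F = p ^ f) : CharP F p := by
  obtain ⟨n, hq, hn⟩ := FiniteField.card F (ringChar F)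
  have : ringChar F = p := by
    rw [hF] at hn
    exact ((Nat.prime_dvd_prime_iff_eq hq hp).1 (hq.dvd_of_dvd_pow (hn ▸ dvd_pow_self _ n.2.ne')))
  exact this ▸ ringChar.charP F

namespace Hyp2

variable {M N : Subgroup G} {z : G} [Finite G]

theorem caseA (h : Hyp2 M N z) {c0 : G} (hc0 : c0 ∈ N) (hc0z : c0 * z = z * c0) (h01 : c0 ≠ 1)
    (h0z : c0 ≠ z) :
    ∃ (F : Type) (_ : Field F) (_ : Fintype F) (p : ℕ) (_ : Fact p.Prime) (_ : CharP F p),
      Fintype.card F = Nat.card M ∧ Cfsg.IsElementaryAbelian p M ∧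
      (Nonempty (G ≃* (GL (Fin 2) F ⧸ Subgroup.center (GL (Fin 2) F))) ∨
        (Fintype.card F % 4 = 1 ∧ Nonempty (G ≃* Matrix.ProjectiveSpecialLinearGroup (Fin 2) F))) := by
  classical
  have := Fintype.ofFinite (G ⧸ N)
  obtain ⟨b, hb, hzb⟩ := h.exists_fix
  set a : G ⧸ N := ((1 : G) : G ⧸ N) with ha
  have hfixa : ∀ w : G, w • a = a ↔ w ∈ N := smul_one_iff
  have huniq : ∀ γ, γ ≠ a → z • γ = γ → γ = b := fun γ h1 h2 => by
    by_contra h3
    rcases h.C_two h1 hb h3 h2 hzb hc0 hc0z with e | e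
    · exact h01 e
    · exact h0z e
  have horb : ∀ β, β ≠ a → ∃ y ∈ M, β = y • b := fun β hβ => by
    obtain ⟨y, hy, γ, h1, h2, rfl⟩ := h.orbit_fix hβ
    exact ⟨y, hy, by rw [huniq γ h1 h2]⟩
  obtain ⟨u, hu, huN, huz, hbu⟩ := h.fix_pt hb hzb
  have hfixb : ∀ w : G, w • b = b ↔ u * w * u ∈ N := fun w => by
    rw [hbu, smul_mk_iff, inv_eq hu]
  have hpair : ∀ p p' : G ⧸ N, p ≠ p' → ∃ g : G, g • a = p ∧ g • b = p' := fun p p' hne => by
    obtain ⟨g, rfl⟩ := QuotientGroup.mk_surjective p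
    obtain ⟨y, hy, e⟩ := horb (g⁻¹ • p') (fun e => hne (by
      rw [inv_smul_eq_iff, ha, smul_one'] at e
      exact e.symm))
    refine ⟨g * y, ?_, ?_⟩
    · rw [mul_smul, (hfixa y).2 (h.le hy), ha, smul_one']
    · rw [mul_smul, ← e, smul_inv_smul]
  have htwo : ∀ p q r s : G ⧸ N, p ≠ q → r ≠ s → ∃ g : G, g • p = r ∧ g • q = s := by
    intro p q r s h1 h2
    obtain ⟨g, rfl, rfl⟩ := hpair p q h1
    obtain ⟨k, rfl, rfl⟩ := hpair r s h2
    exact ⟨k * g⁻¹, by rw [mul_smul, inv_smul_smul], by rw [mul_smul, inv_smul_smul]⟩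
  have hC : ∀ c : G, c • a = a → c • b = b → c ∈ N ∧ c * z = z * c := fun c h1 h2 =>
    ⟨(hfixa c).1 h1, (h.D_comm hu huN h.zN h.zz h.z1 huz ((hfixa c).1 h1) ((hfixb c).1 h2)).symm⟩
  have hC' : ∀ c ∈ N, c * z = z * c → c • b = b := fun c h1 h2 => by
    rw [hfixb, h.E_inv huN huz h1 h2]
    exact N.inv_mem h1
  have hthree0 : ∀ (c : G) (p : G ⧸ N), p ≠ a → p ≠ b → c • a = a → c • b = b → c • p = p →
      c = 1 := by
    intro c p hpa hpb h1 h2 h3
    obtain ⟨hcN, hcz⟩ := hC c h1 h2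
    obtain ⟨x, hx, rfl⟩ := horb p hpa
    have hx1 : x ≠ 1 := fun e => hpb (by rw [e, one_smul])
    have h4 : x⁻¹ * (c * x * c⁻¹) = 1 := by
      refine h.semireg hb (M.mul_mem (M.inv_mem hx) (h.conj c hcN x hx)) ?_
      have h5 : c⁻¹ • b = b := by rw [inv_smul_eq_iff, h2]
      rw [mul_smul, mul_smul, mul_smul, h5, h3, inv_smul_smul]
    have hcx : c * x = x * c := by
      rw [inv_mul_eq_one] at h4
      conv_rhs => rw [h4]
      group
    have h5 := h.E_inv huN huz hcN hcz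
    have h6 : u * x * u ∉ N := fun e => hx1 (h.DM hu huN hx e)
    have h7 : c = u * c⁻¹ * u := by
      rw [← h5]
      calc c = (u * u) * c * (u * u) := by rw [hu]; group
        _ = _ := by group
    refine h.odd x hx hx1 c (h.sq_of_cent h6 hcN ?_) hcx
    conv_lhs => rw [h7]
    conv_rhs => rw [h7]
    calc u * x * u * (u * c⁻¹ * u) = u * (x * (u * u) * c⁻¹) * u := by group
      _ = u * (c⁻¹ * (c * x) * c⁻¹) * u := by rw [hu]; group
      _ = u * (c⁻¹ * (u * u) * x) * u := by rw [hcx, hu]; group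
      _ = _ := by group
  have hthree : ∀ (g : G) (p q r : G ⧸ N), p ≠ q → q ≠ r → p ≠ r → g • p = p → g • q = q →
      g • r = r → g = 1 := by
    intro g p q r h1 h2 h3 h4 h5 h6
    obtain ⟨k, rfl, rfl⟩ := hpair p q h1
    by_contra hg
    refine conj_ne k hg (hthree0 _ (k⁻¹ • r) (fun e => h3 ?_) (fun e => h2 ?_) ?_ ?_ ?_)
    · rw [← e, smul_inv_smul]
    · rw [← e, smul_inv_smul]
    · rw [mul_smul, mul_smul, h4, inv_smul_smul]
    · rw [mul_smul, mul_smul, h5, inv_smul_smul]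
    · rw [mul_smul, mul_smul, smul_inv_smul, h6]
  obtain ⟨⟨x0, hx0⟩, hx1⟩ := Subgroup.ne_bot_iff_exists_ne_one.1 h.ne_bot
  have hx1' : x0 ≠ 1 := fun e => hx1 (Subtype.ext e)
  have hxa : x0 • b ≠ a := fun e => hb (by
    rw [smul_eq_iff_eq_inv_smul] at e
    rw [e, hfixa]
    exact N.inv_mem (h.le hx0))
  have hxb : x0 • b ≠ b := fun e => hx1' (h.semireg hb hx0 e)
  have hfaith : ∀ g : G, (∀ p : G ⧸ N, g • p = p) → g = 1 := fun g hg =>
    hthree0 g _ hxa hxb (hg _) (hg _) (hg _)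
  have hZ : Cfsg.IsZassenhausGroup G (G ⧸ N) := by
    refine ⟨⟨fun {g k} e => ?_⟩, is_two_pretransitive_iff.2 fun h1 h2 => htwo _ _ _ _ h1 h2,
      hthree, ⟨z, h.z1, a, b, hb.symm, (hfixa z).2 h.zN, hzb⟩, fun R hR hRt => ?_⟩
    · rw [← inv_mul_eq_one]
      exact hfaith _ fun p => by rw [mul_smul, ← e, inv_smul_smul]
    · by_contra hne
      push Not at hne
      obtain ⟨⟨r, hr⟩, hrab⟩ := hRt.exists_smul_eq a b
      have hrab' : r • a = b := hrab
      have hcomm : ∀ c ∈ N, c * z = z * c → r * c = c * r := fun c h1 h2 => by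
        have h3 : (⟨r⁻¹ * (c * r * c⁻¹), R.mul_mem (R.inv_mem hr) (hR.conj_mem r hr c)⟩ : R) ∈
            stabilizer R a := by
          show (r⁻¹ * (c * r * c⁻¹)) • a = a
          rw [mul_smul, mul_smul, mul_smul, (hfixa _).2 (N.inv_mem h1), hrab', hC' c h1 h2,
            inv_smul_eq_iff, hrab']
        have h4 : r⁻¹ * (c * r * c⁻¹) = 1 :=
          congrArg Subtype.val (Subgroup.mem_bot.1 ((hne a).le h3))
        rw [inv_mul_eq_one] at h4
        conv_lhs => rw [h4]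
        group
      have hrN : r ∉ N := fun e => hb (by rw [← hrab', (hfixa r).2 e])
      have h5 := h.sq_of_cent hrN hc0 (hcomm c0 hc0 hc0z)
      exact h0z (h.invol_eq hc0 h5 h01 h.zN h.zz h.z1 hc0z)
  have hreg : ∀ y w : G ⧸ N, y ≠ a → w ≠ a → ∃! v : M, (v : G) • y = w := by
    intro y w hy hw
    obtain ⟨s, hs, rfl⟩ := horb y hy
    obtain ⟨t, ht, rfl⟩ := horb w hw
    refine ⟨⟨t * s⁻¹, M.mul_mem ht (M.inv_mem hs)⟩, ?_, ?_⟩
    · show (t * s⁻¹) • s • b = _
      rw [mul_smul, inv_smul_smul]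
    · rintro ⟨v, hv⟩ e
      have e' : v • s • b = t • b := e
      have := h.semireg hb (M.mul_mem (M.mul_mem (M.inv_mem ht) hv) hs) (by
        rw [mul_smul, mul_smul, e', inv_smul_smul])
      refine Subtype.ext ?_
      calc v = t * (t⁻¹ * v * s) * s⁻¹ := by group
        _ = t * s⁻¹ := by rw [this, mul_one]
  have hcard : Fintype.card (G ⧸ N) = Nat.card M + 1 := by
    have h1 : Nat.card {β : G ⧸ N // β ≠ ((1 : G) : G ⧸ N) ∧ z • β = β} = 1 :=
      Nat.card_eq_one_iff_exists.2 ⟨⟨b, hb, hzb⟩, fun β => Subtype.ext (huniq _ β.2.1 β.2.2)⟩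
    rw [← Nat.card_eq_fintype_card, h.card_pts, h1]
    ring
  have heven : Even (Nat.card (stabilizer G a ⊓ stabilizer G b : Subgroup G)) := by
    have hz2 : orderOf z = 2 := orderOf_eq_prime (by rw [pow_two, h.zz]) h.z1
    rw [even_iff_two_dvd, ← hz2]
    exact Subgroup.orderOf_dvd_natCard _ ⟨(hfixa z).2 h.zN, hzb⟩
  have hd := Cfsg.Agent.S0741.result hZ hb.symm heven
  have hst : stabilizer G a = N := by
    ext w
    exact hfixa w
  obtain ⟨hMc, p, f, hp, hpM, hpf⟩ := Cfsg.Agent.S0738.result hZ hb.symm hd M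
    (by rw [hst]; exact h.le) (by
      rw [hst]
      exact ⟨fun x hx n => h.conj n n.2 x hx⟩) hreg
  have hM : Nat.card M = p ^ f := by omega
  have hM1 : 1 < Nat.card M := (Subgroup.one_lt_card_iff_ne_bot M).2 h.ne_bot
  by_cases hle : 2 * Nat.card (stabilizer G a ⊓ stabilizer G b : Subgroup G) ≤
      Fintype.card (G ⧸ N) - 2
  · obtain ⟨p', f', K, _, _, -, -, hK, hK', he⟩ := Cfsg.Agent.S0742.result hZ hb.symm heven hle
    have hKM : Fintype.card K = Nat.card M := by omega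
    obtain ⟨k, hk⟩ := heven
    exact ⟨K, inferInstance, inferInstance, p, ⟨hp⟩, charP_of_card hp (hKM.trans hM), hKM,
      ⟨hMc, hpM⟩, Or.inr ⟨by omega, he⟩⟩
  · have htr : ∀ y w : G ⧸ N, y ≠ a → y ≠ b → w ≠ a → w ≠ b →
        ∃ c : G, c • a = a ∧ c • b = b ∧ c • y = w := by
      intro y w hya hyb hwa hwb
      by_contra hne
      push Not at hne
      apply hle
      have hm : ∀ (c : (stabilizer G a ⊓ stabilizer G b : Subgroup G)) (v : G ⧸ N), v ≠ a → v ≠ b →
          (c : G) • v ∈ {x : G ⧸ N | x ≠ a ∧ x ≠ b} := fun c v h1 h2 =>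
        ⟨fun e => h1 (smul_left_cancel (c : G) (e.trans (H27.mem_stab2.1 c.2).1.symm)),
          fun e => h2 (smul_left_cancel (c : G) (e.trans (H27.mem_stab2.1 c.2).2.symm))⟩
      have hinj : ∀ (c d : (stabilizer G a ⊓ stabilizer G b : Subgroup G)) (v : G ⧸ N), v ≠ a →
          v ≠ b → (c : G) • v = (d : G) • v → c = d := fun c d v h1 h2 e => by
        have h3 := H27.mem_stab2.1 (d⁻¹ * c).2
        have := hthree0 _ v h1 h2 h3.1 h3.2 (by
          show ((d : G)⁻¹ * c) • v = v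
          rw [mul_smul, e, inv_smul_smul])
        exact (inv_mul_eq_one.1 (Subtype.ext this : d⁻¹ * c = 1)).symm
      have hmix : ∀ (c d : (stabilizer G a ⊓ stabilizer G b : Subgroup G)),
          (c : G) • y ≠ (d : G) • w := fun c d e => by
        have h3 := H27.mem_stab2.1 (d⁻¹ * c).2
        refine hne _ h3.1 h3.2 ?_
        show ((d : G)⁻¹ * c) • y = w
        rw [mul_smul, e, inv_smul_smul]
      have := Nat.card_le_card_of_injective (α := (stabilizer G a ⊓ stabilizer G b : Subgroup G) ⊕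
        (stabilizer G a ⊓ stabilizer G b : Subgroup G)) (β := {x : G ⧸ N | x ≠ a ∧ x ≠ b})
        (Sum.elim (fun c => ⟨_, hm c y hya hyb⟩) (fun c => ⟨_, hm c w hwa hwb⟩)) (by
          rintro (c | c) (d | d) e
          · rw [hinj c d y hya hyb (congrArg Subtype.val e)]
          · exact (hmix c d (congrArg Subtype.val e)).elim
          · exact (hmix d c (congrArg Subtype.val e).symm).elim
          · rw [hinj c d w hwa hwb (congrArg Subtype.val e)])
      rw [H27.ZData.card_compl_pair hb, Nat.card_sum, Nat.card_eq_fintype_card (α := G ⧸ N)] at this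
      omega
    have hS : H27.Sharp3 G (G ⧸ N) := by
      refine ⟨⟨htwo, hthree, hfaith⟩, fun p1 p2 p3 q1 q2 q3 h1 h2 h3 h4 h5 h6 => ?_⟩
      obtain ⟨g, rfl, rfl⟩ := hpair p1 p2 h1
      obtain ⟨k, rfl, rfl⟩ := hpair q1 q2 h4
      obtain ⟨c, e1, e2, e3⟩ := htr (g⁻¹ • p3) (k⁻¹ • q3)
        (fun e => h2 (by rw [← e, smul_inv_smul])) (fun e => h3 (by rw [← e, smul_inv_smul]))
        (fun e => h5 (by rw [← e, smul_inv_smul])) (fun e => h6 (by rw [← e, smul_inv_smul]))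
      exact ⟨k * c * g⁻¹, by rw [mul_smul, mul_smul, inv_smul_smul, e1],
        by rw [mul_smul, mul_smul, inv_smul_smul, e2],
        by rw [mul_smul, mul_smul, e3, smul_inv_smul]⟩
    obtain ⟨F, _, _, hF, he⟩ := hS.pgl2_of_comm hb hxa hxb (fun c hc d hd => by
      obtain ⟨h1, h2⟩ := hC c hc.1 hc.2
      obtain ⟨h3, h4⟩ := hC d hd.1 hd.2
      have h5 := h.E_inv huN huz (N.mul_mem h1 h3) (by
        rw [mul_assoc, h4, ← mul_assoc, h2, mul_assoc])
      apply inv_injective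
      rw [← h5, mul_inv_rev, ← h.E_inv huN huz h1 h2, ← h.E_inv huN huz h3 h4]
      calc u * (c * d) * u = u * c * (u * u) * d * u := by rw [hu]; group
        _ = _ := by group)
    have hFM : Fintype.card F = Nat.card M := by
      rw [Nat.card_eq_fintype_card] at hF
      omega
    exact ⟨F, inferInstance, inferInstance, p, ⟨hp⟩, charP_of_card hp (hFM.trans hM), hFM,
      ⟨hMc, hpM⟩, Or.inl he⟩

end Hyp2

end H79.TC
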