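import Mathlib
import Cfsg.Agent.Lib.TICount.Pts
import Cfsg.Agent.Lib.FrobC.Perfect
import Cfsg.Agent.Lib.TwoFusion.Tools
import Cfsg.Agent.S1230

/-!
# The case `C_N(z) = ⟨z⟩` (helper79)
-/

set_option autoImplicit false

namespace H79.TC

open MulAction

variable {G : Type*} [Group G]

theorem arith {k s m j : ℕ} (h1 : k * (s + 1) = 1 + m * s) (h2 : 1 + k + j = 2 * (s + 1))
    (hs : 1 ≤ s) (hm : 1 < m) : (m = 2 * (s + 1) + 1 ∧ j = 0) ∨ (m = s + 2 ∧ k = s + 1 ∧ j = s) := by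
  have h3 : k ≤ m := by nlinarith
  obtain ⟨r, rfl⟩ := Nat.exists_eq_add_of_le h3
  have h4 : k = 1 + r * s := by nlinarith
  have h5 : r ≤ 2 := by nlinarith
  interval_cases r <;> omega

theorem sq_of_isConj {z t : G} (hz : z * z = 1) (h : IsConj z t) : t * t = 1 := by
  obtain ⟨g, rfl⟩ := isConj_iff.1 h
  simpa using conj_sq g⁻¹ hz

theorem ne_of_isConj {z t : G} (hz : z ≠ 1) (h : IsConj z t) : t ≠ 1 := by
  rintro rfl
  exact hz (isConj_one_left.1 h)

theorem isConj_conj {z t : G} (h : IsConj z t) (g : G) : IsConj z (g * t * g⁻¹) :=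
  h.trans (isConj_iff.2 ⟨g, rfl⟩)

theorem card_fix_conj {N : Subgroup G} {z t : G} (h : IsConj z t) :
    Nat.card {β : G ⧸ N // t • β = β} = Nat.card {β : G ⧸ N // z • β = β} := by
  obtain ⟨g, rfl⟩ := isConj_iff.1 h
  refine Nat.card_congr ((MulAction.toPerm g⁻¹).subtypeEquiv fun β => ?_)
  rw [MulAction.toPerm_apply, mul_smul, mul_smul, smul_eq_iff_eq_inv_smul]

theorem isCyclic_of_psl {F : Type} [Field F] [Finite F] [CharP F 2] {A : Type*} [Group A] [Finite A]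
    (f : A →* Matrix.ProjectiveSpecialLinearGroup (Fin 2) F) (hf : Function.Injective f)
    (hc : ∀ a b : A, a * b = b * a) (h2 : ∀ a : A, a * a = 1 → a = 1) : IsCyclic A := by
  have hcen : Subgroup.center (Matrix.SpecialLinearGroup (Fin 2) F) = ⊥ := by
    rw [eq_bot_iff]
    intro B hB
    obtain ⟨r, hr, e⟩ := Matrix.SpecialLinearGroup.mem_center_iff.1 hB
    have hr1 : r = 1 := by
      have : (r - 1) ^ 2 = 0 := by
        have h0 : (2 : F) = 0 := CharTwo.two_eq_zero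
        rw [Fintype.card_fin] at hr
        linear_combination hr + (1 - r) * h0
      exact sub_eq_zero.1 (pow_eq_zero_iff (two_ne_zero) |>.1 this)
    rw [Subgroup.mem_bot]
    apply Subtype.ext
    rw [← e, hr1, map_one]
    rfl
  let e : Matrix.SpecialLinearGroup (Fin 2) F ≃* Matrix.ProjectiveSpecialLinearGroup (Fin 2) F :=
    MulEquiv.ofBijective (QuotientGroup.mk' _) ⟨by
      rw [← MonoidHom.ker_eq_bot_iff, QuotientGroup.ker_mk', hcen], QuotientGroup.mk'_surjective _⟩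
  let ρ : A →* Matrix.SpecialLinearGroup (Fin 2) F := e.symm.toMonoidHom.comp f
  have hρ : Function.Injective ρ := e.symm.injective.comp hf
  let φ : A →* MulAut (Multiplicative (Fin 2 → F)) :=
    { toFun := fun a => AddEquiv.toMultiplicative (Matrix.SpecialLinearGroup.toLin' (ρ a)).toAddEquiv
      map_one' := by rw [map_one, map_one]; rfl
      map_mul' := fun a b => by rw [map_mul, map_mul]; rfl }
  have hφ : H82.FPF φ := by
    intro a ha v hv
    by_contra hv1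
    apply ha
    apply h2
    apply hρ
    rw [map_mul, map_one]
    have hv' : ((ρ a : Matrix.SpecialLinearGroup (Fin 2) F) : Matrix (Fin 2) (Fin 2) F).mulVec
        v.toAdd = v.toAdd := hv
    have hdet : ((ρ a : Matrix (Fin 2) (Fin 2) F) - 1).det = 0 := by
      rw [← Matrix.exists_mulVec_eq_zero_iff]
      exact ⟨v.toAdd, hv1, by rw [Matrix.sub_mulVec, hv', Matrix.one_mulVec, sub_self]⟩
    have hd := (ρ a).2
    have h0 : (2 : F) = 0 := CharTwo.two_eq_zero
    rw [Matrix.det_fin_two] at hdet hd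
    simp only [Matrix.sub_apply, Matrix.one_apply_eq, ne_eq, zero_ne_one, not_false_eq_true,
      Matrix.one_apply_ne, one_ne_zero, sub_zero] at hdet
    have htr : (ρ a).1 0 0 + (ρ a).1 1 1 = 0 := by linear_combination hd - hdet + h0
    apply Subtype.ext
    ext i j
    fin_cases i <;> fin_cases j <;> simp [Matrix.mul_apply, Fin.sum_univ_two]
    · linear_combination (-1 : F) * hd + (ρ a).1 0 0 * htr - h0
    · linear_combination (ρ a).1 0 1 * htr
    · linear_combination (ρ a).1 1 0 * htr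
    · linear_combination (-1 : F) * hd + (ρ a).1 1 1 * htr - h0
  exact hφ.intFPF.isCyclic_of_comm hc

/-- The case `C_N(z) = ⟨z⟩`. -/
structure HypB (M N : Subgroup G) (z : G) : Prop extends Hyp2 M N z where
  two : ∀ c ∈ N, c * z = z * c → c = 1 ∨ c = z

namespace HypB

variable {M N : Subgroup G} {z : G} [Finite G]

theorem sqz (h : HypB M N z) {g : G} (hg : g * z = z * g) : g * g = 1 := by
  by_cases hN : g ∈ N
  · rcases h.two g hN hg with rfl | rfl
    · exact one_mul 1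
    · exact h.zz
  · exact h.E_sq hN hg

theorem sqt (h : HypB M N z) {t g : G} (ht : IsConj z t) (hg : g * t = t * g) : g * g = 1 := by
  obtain ⟨k, rfl⟩ := isConj_iff.1 ht
  have := conj_comm k hg
  rw [show k⁻¹ * (k * z * k⁻¹) * k = z by group] at this
  have h1 := conj_sq k⁻¹ (h.sqz this)
  rwa [show k⁻¹⁻¹ * (k⁻¹ * g * k) * k⁻¹ = g by group] at h1

theorem commt (h : HypB M N z) {t g k : G} (ht : IsConj z t) (hg : g * t = t * g)
    (hk : k * t = t * k) : g * k = k * g := by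
  have h1 := h.sqt ht (g := g * k) (by rw [mul_assoc, hk, ← mul_assoc, hg, mul_assoc])
  rw [← inv_eq h1, mul_inv_rev, inv_eq (h.sqt ht hg), inv_eq (h.sqt ht hk)]

theorem card_E (h : HypB M N z) : Nat.card (Subgroup.centralizer ({z} : Set G)) =
    2 * Nat.card {β : G ⧸ N // z • β = β} := by
  set E := Subgroup.centralizer ({z} : Set G)
  have hE : ∀ g, g ∈ E ↔ g * z = z * g := fun g => Subgroup.mem_centralizer_singleton_iff
  rw [← Subgroup.card_mul_index (stabilizer E ((1 : G) : G ⧸ N)), index_stabilizer]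
  congr 1
  · rw [Nat.card_eq_two_iff]
    refine ⟨1, ⟨⟨z, (hE z).2 rfl⟩, (smul_one_iff z).2 h.zN⟩, fun e => h.z1
      (congrArg (fun x => x.1.1) e).symm, Set.eq_univ_of_forall ?_⟩
    rintro ⟨⟨c, hc⟩, hc'⟩
    rcases h.two c ((smul_one_iff c).1 hc') ((hE c).1 hc) with rfl | rfl
    · exact Or.inl rfl
    · exact Or.inr rfl
  · rw [← Nat.card_coe_set_eq]
    refine Nat.card_congr (Equiv.subtypeEquivRight fun β => ⟨?_, fun hβ => ?_⟩)
    · rintro ⟨⟨g, hg⟩, rfl⟩
      show z • g • ((1 : G) : G ⧸ N) = g • ((1 : G) : G ⧸ N)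
      rw [← mul_smul, ← (hE g).1 hg, mul_smul, (smul_one_iff z).2 h.zN]
    · by_cases h1 : β = ((1 : G) : G ⧸ N)
      · rw [h1]
        exact mem_orbit_self _
      · obtain ⟨u, -, -, huz, rfl⟩ := h.fix_pt h1 hβ
        exact ⟨⟨u, (hE u).2 huz⟩, smul_one' u⟩

theorem exists_tau (h : HypB M N z) (β : G ⧸ N) :
    ∃ t, (t * z = z * t ∧ IsConj z t) ∧ t • β = β := by
  by_cases h1 : z • β = β
  · exact ⟨z, ⟨rfl, IsConj.refl z⟩, h1⟩
  · obtain ⟨t, ht, ht1, h2, h3⟩ := h.G2 h.zz h1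
    exact ⟨t, ⟨h3.symm, h.G1 ht ht1 h2⟩, h2⟩

theorem tau_unique (h : HypB M N z) {β : G ⧸ N} {t t' : G} (ht : t * z = z * t ∧ IsConj z t)
    (ht' : t' * z = z * t' ∧ IsConj z t') (h1 : t • β = β) (h2 : t' • β = β) : t = t' :=
  h.G5 (h.sqz ht.1) (ne_of_isConj h.z1 ht.2) (h.sqz ht'.1) (ne_of_isConj h.z1 ht'.2) h1 h2
    (h.commt (IsConj.refl z) ht.1 ht'.1)

theorem card_pts' (h : HypB M N z) : Nat.card (G ⧸ N) =
    Nat.card {t : G // t * z = z * t ∧ IsConj z t} * Nat.card {β : G ⧸ N // z • β = β} := by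
  classical
  have := Fintype.ofFinite {t : G // t * z = z * t ∧ IsConj z t}
  have h1 : Nat.card (Σ t : {t : G // t * z = z * t ∧ IsConj z t},
      {β : G ⧸ N // (t : G) • β = β}) = Nat.card (G ⧸ N) := by
    refine Nat.card_eq_of_bijective (fun p => p.2.1) ⟨?_, fun β => ?_⟩
    · rintro ⟨⟨t, ht⟩, ⟨β, hβ⟩⟩ ⟨⟨t', ht'⟩, ⟨β', hβ'⟩⟩ e
      obtain rfl : β = β' := e
      obtain rfl := h.tau_unique ht ht' hβ hβ'
      rfl
    · obtain ⟨t, ht, hβ⟩ := h.exists_tau β
      exact ⟨⟨⟨t, ht⟩, ⟨β, hβ⟩⟩, rfl⟩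
  rw [← h1, Nat.card_sigma, Finset.sum_congr rfl fun t _ => card_fix_conj t.2.2, Finset.sum_const,
    Finset.card_univ, smul_eq_mul, Nat.card_eq_fintype_card (α := {t : G // t * z = z * t ∧ IsConj z t})]

theorem card_fix (h : HypB M N z) : Nat.card {β : G ⧸ N // z • β = β} =
    Nat.card {β : G ⧸ N // β ≠ ((1 : G) : G ⧸ N) ∧ z • β = β} + 1 := by
  have h1 : {β : G ⧸ N | z • β = β} =
      insert ((1 : G) : G ⧸ N) {β : G ⧸ N | β ≠ ((1 : G) : G ⧸ N) ∧ z • β = β} := by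
    ext β
    by_cases e : β = ((1 : G) : G ⧸ N)
    · simp [e, (smul_one_iff z).2 h.zN]
    · simp [e]
  have := Set.ncard_insert_of_notMem (a := ((1 : G) : G ⧸ N))
    (s := {β : G ⧸ N | β ≠ ((1 : G) : G ⧸ N) ∧ z • β = β}) (by simp)
  rw [← h1] at this
  exact this

omit [Finite G] in
theorem card_split [Finite G] (h : HypB M N z) : 1 + Nat.card {t : G // t * z = z * t ∧ IsConj z t} +
    Nat.card {t : G // t * z = z * t ∧ t ≠ 1 ∧ ¬ IsConj z t} =
    Nat.card (Subgroup.centralizer ({z} : Set G)) := by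
  have h1 : (Subgroup.centralizer ({z} : Set G) : Set G) = insert 1
      ({t : G | t * z = z * t ∧ IsConj z t} ∪ {t : G | t * z = z * t ∧ t ≠ 1 ∧ ¬ IsConj z t}) := by
    ext t
    rw [SetLike.mem_coe, Subgroup.mem_centralizer_singleton_iff]
    simp only [Set.mem_insert_iff, Set.mem_union, Set.mem_ofPred_eq]
    constructor
    · tauto
    · rintro (rfl | h1 | h1)
      · simp
      · exact h1.1
      · exact h1.1
  have h2 : Nat.card (Subgroup.centralizer ({z} : Set G)) =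
      (Subgroup.centralizer ({z} : Set G) : Set G).ncard := rfl
  rw [h2, h1, Set.ncard_insert_of_notMem, Set.ncard_union_eq]
  · show 1 + Set.ncard {t : G | t * z = z * t ∧ IsConj z t} +
      Set.ncard {t : G | t * z = z * t ∧ t ≠ 1 ∧ ¬ IsConj z t} = _
    omega
  · rw [Set.disjoint_left]
    exact fun t h1 h2 => h2.2.2 h1.2
  · rintro (h1 | h1)
    · exact ne_of_isConj h.z1 h1.2 rfl
    · exact h1.2.1 rfl

theorem exists_pow (h : HypB M N z) : ∃ d : ℕ, Nat.card {β : G ⧸ N // z • β = β} = 2 ^ d := by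
  have hE : IsPGroup 2 (Subgroup.centralizer ({z} : Set G)) := fun g =>
    ⟨1, Subtype.ext (by
      simpa [pow_two] using h.sqz (Subgroup.mem_centralizer_singleton_iff.1 g.2))⟩
  obtain ⟨e, he⟩ := hE.exists_card_eq
  rw [h.card_E] at he
  cases e with
  | zero => omega
  | succ d => exact ⟨d, by rw [pow_succ] at he; omega⟩

theorem caseB1 (h : HypB M N z) (hq : 2 ≤ Nat.card {β : G ⧸ N // z • β = β})
    (hm : Nat.card M = 2 * Nat.card {β : G ⧸ N // z • β = β} + 1)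
    (hj : Nat.card {t : G // t * z = z * t ∧ t ≠ 1 ∧ ¬ IsConj z t} = 0) :
    ∃ (F : Type) (_ : Field F) (_ : Fintype F) (e : ℕ), 1 < e ∧ Fintype.card F = 2 ^ e ∧
      IsCyclic M ∧ Nat.card M = 2 ^ e + 1 ∧
      Nonempty (G ≃* Matrix.ProjectiveSpecialLinearGroup (Fin 2) F) := by
  have h1 : ∀ t, t * z = z * t → t ≠ 1 → IsConj z t := fun t h1 h2 => by
    by_contra h3
    exact (Nat.card_pos_iff.2 ⟨⟨⟨t, h1, h2, h3⟩⟩, inferInstance⟩).ne' hj
  have h2 : ∀ u, u * u = 1 → u ≠ 1 → IsConj z u := fun u hu hu1 => by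
    by_cases hN : u ∈ N
    · exact h.G1 hu hu1 ((smul_one_iff u).2 hN)
    · obtain ⟨t, htN, ht, ht1, hc⟩ := h.exists_t hu hN
      obtain ⟨y, -, rfl⟩ := h.invol_conj htN ht ht1
      have h3 := conj_comm y hc
      rw [show y⁻¹ * (y * z * y⁻¹) * y = z by group] at h3
      have := isConj_conj (h1 _ h3 (conj_ne y hu1)) y
      rwa [show y * (y⁻¹ * u * y) * y⁻¹ = u by group] at this
  have h3 : ∀ u, orderOf u = 2 → IsConj z u := fun u hu =>
    h2 u (by rw [← pow_two, ← hu, pow_orderOf_eq_one]) (by rintro rfl; simp at hu)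
  have hE : IsPGroup 2 (Subgroup.centralizer ({z} : Set G)) := fun g =>
    ⟨1, Subtype.ext (by
      simpa [pow_two] using h.sqz (Subgroup.mem_centralizer_singleton_iff.1 g.2))⟩
  obtain ⟨T, hT⟩ := hE.exists_le_sylow
  have hzT : z ∈ (T : Subgroup G) := hT (Subgroup.mem_centralizer_singleton_iff.2 rfl)
  have hTE : (T : Subgroup G) = Subgroup.centralizer ({z} : Set G) := by
    refine le_antisymm (fun g hg => ?_) hT
    have : Nontrivial (T : Subgroup G) := ⟨⟨⟨z, hzT⟩, 1, fun e => h.z1 (congrArg Subtype.val e)⟩⟩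
    have := T.2.center_nontrivial
    obtain ⟨n, hn, hc⟩ := (T.2.to_subgroup (Subgroup.center T)).nontrivial_iff_card.1 this
    obtain ⟨w, hw⟩ := exists_prime_orderOf_dvd_card' (G := Subgroup.center (T : Subgroup G)) 2
      (hc ▸ dvd_pow_self 2 hn.ne')
    have hw' : orderOf (w.1.1 : G) = 2 := by
      rw [Subgroup.orderOf_coe, Subgroup.orderOf_coe, hw]
    have hwc : ∀ x ∈ (T : Subgroup G), x * w.1.1 = w.1.1 * x := fun x hx =>
      congrArg Subtype.val (Subgroup.mem_center_iff.1 w.2 ⟨x, hx⟩)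
    exact Subgroup.mem_centralizer_singleton_iff.2 (h.commt (h3 _ hw') (hwc g hg) (hwc z hzT))
  have hTc : Nat.card (T : Subgroup G) = 2 * Nat.card {β : G ⧸ N // z • β = β} := by
    rw [hTE, h.card_E]
  obtain ⟨F, _, _, hF, ⟨e⟩⟩ := Cfsg.Agent.S1230.result T (fun hc => by
      obtain ⟨g, hg⟩ := hc.exists_ofOrder_eq_natCard
      have h4 : g ^ 2 = 1 := Subtype.ext (by
        simpa [pow_two] using h.sqz (Subgroup.mem_centralizer_singleton_iff.1 (hTE ▸ g.2)))
      have := Nat.le_of_dvd two_pos (orderOf_dvd_of_pow_eq_one h4)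
      omega) (fun hn => by
      obtain ⟨⟨x, hx⟩, hx1⟩ := Subgroup.ne_bot_iff_exists_ne_one.1 h.ne_bot
      have h4 := hn.conj_mem z hzT x⁻¹
      rw [hTE, Subgroup.mem_centralizer_singleton_iff, inv_inv] at h4
      have hxN := h.le hx
      have h5 := h.invol_eq (N.mul_mem (N.mul_mem (N.inv_mem hxN) h.zN) hxN) (conj_sq x h.zz)
        (conj_ne x h.z1) h.zN h.zz h.z1 h4
      refine hx1 (Subtype.ext (h.eq_one hx h.zz h.z1 ?_))
      conv_rhs => rw [← h5]
      group) (fun t ht => ⟨⟨⟨fun a b => Subtype.ext (h.commt (h3 t ht)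
        (Subgroup.mem_centralizer_singleton_iff.1 a.2)
        (Subgroup.mem_centralizer_singleton_iff.1 b.2))⟩⟩, fun c hc => by
          rw [pow_two]
          exact h.sqt (h3 t ht) (Subgroup.mem_centralizer_singleton_iff.1 hc)⟩)
  obtain ⟨d, hd⟩ := h.exists_pow
  have hF' : Fintype.card F = 2 ^ (d + 1) := by
    have : Nat.card T = Nat.card (T : Subgroup G) := rfl
    rw [hF, this, hTc, hd, pow_succ']
  have hd1 : d ≠ 0 := by
    rintro rfl
    omega
  have : CharP F 2 := by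
    obtain ⟨n, hq, hn⟩ := FiniteField.card F (ringChar F)
    have : ringChar F = 2 := by
      rw [hF'] at hn
      exact ((Nat.prime_dvd_prime_iff_eq hq Nat.prime_two).1
        (hq.dvd_of_dvd_pow (hn ▸ dvd_pow_self _ n.2.ne')))
    exact this ▸ ringChar.charP F
  refine ⟨F, inferInstance, inferInstance, d + 1, by omega, hF', ?_, by rw [hm, hd, pow_succ'],
    ⟨e⟩⟩
  exact isCyclic_of_psl (e.toMonoidHom.comp M.subtype) (e.injective.comp M.subtype_injective)
    (fun a b => Subtype.ext (h.comm a.2 b.2))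
    (fun a ha => Subtype.ext (h.sq a.2 (congrArg Subtype.val ha)))

theorem meet (h : HypB M N z) (hk : Nat.card {t : G // t * z = z * t ∧ IsConj z t} =
    Nat.card {β : G ⧸ N // z • β = β}) {t t' : G} (ht : IsConj z t) (ht' : IsConj z t')
    (hc : t * t' ≠ t' * t) : ∃ β : G ⧸ N, t • β = β ∧ t' • β = β := by
  obtain ⟨g, rfl⟩ := isConj_iff.1 ht
  have hw : IsConj z (g⁻¹ * t' * g) := by simpa using isConj_conj ht' g⁻¹
  set w := g⁻¹ * t' * g with hwd
  have hc' : w * z ≠ z * w := fun e => hc (comm_of_conj g (by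
    rw [show g⁻¹ * (g * z * g⁻¹) * g = z by group, ← hwd, e]))
  choose τ hτ hτ' using h.exists_tau
  let f : {β : G ⧸ N // w • β = β} → {t : G // t * z = z * t ∧ IsConj z t} := fun β => ⟨τ β, hτ β⟩
  have hf : Function.Injective f := by
    rintro ⟨β, hβ⟩ ⟨γ, hγ⟩ e
    have e' : τ β = τ γ := congrArg Subtype.val e
    by_contra hne
    have := h.G3 (fun e => hne (Subtype.ext e)) (sq_of_isConj h.zz hw) (ne_of_isConj h.z1 hw)
      (h.sqz (hτ β).1) (ne_of_isConj h.z1 (hτ β).2) hβ (hτ' β) hγ (e' ▸ hτ' γ)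
    exact hc' (this ▸ (hτ β).1)
  have hb := hf.bijective_of_nat_card_le (by rw [hk, card_fix_conj hw])
  obtain ⟨⟨β, hβ⟩, e⟩ := hb.2 ⟨z, rfl, IsConj.refl z⟩
  have e' : τ β = z := congrArg Subtype.val e
  refine ⟨g • β, ?_, ?_⟩
  · rw [mul_smul, mul_smul, inv_smul_smul, ← e', hτ' β]
  · conv_rhs => rw [← hβ, hwd]
    rw [← mul_smul, ← mul_smul]
    congr 1
    group

/-- The kernel of the action on the parallel classes. -/
def K (h : HypB M N z) : Subgroup G where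
  carrier := {g | ∀ t, IsConj z t → g * t * g⁻¹ * t = t * (g * t * g⁻¹)}
  one_mem' := fun t _ => by simp
  mul_mem' := fun {g k} hg hk t ht => by
    have h1 := hg _ (isConj_conj ht k)
    have h2 := h.commt (isConj_conj ht k) h1 (hk t ht).symm
    rwa [show g * (k * t * k⁻¹) * g⁻¹ = g * k * t * (g * k)⁻¹ by group] at h2
  inv_mem' := fun {g} hg t ht => by
    have h1 := hg _ (isConj_conj ht g⁻¹)
    rw [show g * (g⁻¹ * t * g⁻¹⁻¹) * g⁻¹ = t by group] at h1
    exact h1.symm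

theorem K_normal (h : HypB M N z) : h.K.Normal := ⟨fun k hk g t ht => by
  have h1 := hk _ (isConj_conj ht g⁻¹)
  refine comm_of_conj g ?_
  convert h1 using 2 <;> group⟩

theorem K_inf (h : HypB M N z) {n : G} (hK : n ∈ h.K) (hN : n ∈ N) : n = 1 := by
  have h1 : ∀ y ∈ M, n * (y * z * y⁻¹) = (y * z * y⁻¹) * n := fun y hy => by
    have hc := isConj_conj (IsConj.refl z) y
    have hm : y * z * y⁻¹ ∈ N := N.mul_mem (N.mul_mem (h.le hy) h.zN) (N.inv_mem (h.le hy))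
    have := h.invol_eq (N.mul_mem (N.mul_mem hN hm) (N.inv_mem hN))
      (sq_of_isConj h.zz (isConj_conj hc n)) (ne_of_isConj h.z1 (isConj_conj hc n)) hm
      (sq_of_isConj h.zz hc) (ne_of_isConj h.z1 hc) (hK _ hc)
    conv_rhs => rw [← this]
    group
  rcases h.two n hN (by simpa using h1 1 M.one_mem) with e | e
  · exact e
  · exfalso
    obtain ⟨⟨x, hx⟩, hx1⟩ := Subgroup.ne_bot_iff_exists_ne_one.1 h.ne_bot
    have hc := isConj_conj (IsConj.refl z) x
    have := h.invol_eq h.zN h.zz h.z1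
      (N.mul_mem (N.mul_mem (h.le hx) h.zN) (N.inv_mem (h.le hx)))
      (sq_of_isConj h.zz hc) (ne_of_isConj h.z1 hc) (e ▸ h1 x hx)
    refine hx1 (Subtype.ext (h.eq_one hx h.zz h.z1 ?_))
    conv_lhs => rw [this]
    group

theorem J_mem (h : HypB M N z) (hk : Nat.card {t : G // t * z = z * t ∧ IsConj z t} =
    Nat.card {β : G ⧸ N // z • β = β}) {j : G} (hj : j * j = 1) (hj1 : j ≠ 1)
    (hjz : ¬ IsConj z j) : j ∈ h.K := by
  intro t ht
  by_contra hc
  obtain ⟨β, h1, h2⟩ := h.meet hk (isConj_conj ht j) ht hc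
  have h3 := h.G4 hj (fun e => hjz (h.G1 hj hj1 e)) (sq_of_isConj h.zz ht) h2 (by
    rw [inv_eq hj, mul_smul, mul_smul, smul_eq_iff_eq_inv_smul, inv_eq hj] at h1
    exact h1)
  apply hc
  rw [h3]
  group

theorem caseB2 (h : HypB M N z) {s : ℕ} (hs : 1 ≤ s)
    (hq : Nat.card {β : G ⧸ N // z • β = β} = s + 1) (hm : Nat.card M = s + 2)
    (hk : Nat.card {t : G // t * z = z * t ∧ IsConj z t} = s + 1)
    (hj : Nat.card {t : G // t * z = z * t ∧ t ≠ 1 ∧ ¬ IsConj z t} = s) :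
    ∃ (d : ℕ) (E : Subgroup G), 1 ≤ d ∧ E.Normal ∧ Cfsg.IsElementaryAbelian 2 E ∧
      Nat.card E = 2 ^ (2 * d) ∧ E ⊓ N = ⊥ ∧ E ⊔ N = ⊤ ∧
      Nonempty (N ≃* DihedralGroup (2 ^ d + 1)) := by
  have hk' := hk.trans hq.symm
  have hn := h.card_pts'
  rw [hk, hq] at hn
  have hnc : ∀ (x : G) {t : G}, ¬ IsConj z t → ¬ IsConj z (x * t * x⁻¹) := fun x t h1 h2 => h1 (by
    have := isConj_conj h2 x⁻¹
    rwa [show x⁻¹ * (x * t * x⁻¹) * x⁻¹⁻¹ = t by group] at this)
  have hsq : ∀ (x : G) {t : G}, t * t = 1 → x * t * x⁻¹ * (x * t * x⁻¹) = 1 := fun x t h1 => by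
    simpa using conj_sq x⁻¹ h1
  have hne : ∀ (x : G) {t : G}, t ≠ 1 → x * t * x⁻¹ ≠ 1 := fun x t h1 => by
    simpa using h1
  let f : Option (M × {t : G // t * z = z * t ∧ t ≠ 1 ∧ ¬ IsConj z t}) → h.K := fun o =>
    o.elim 1 fun p => ⟨p.1 * p.2 * (p.1 : G)⁻¹,
      h.J_mem hk' (hsq _ (h.sqz p.2.2.1)) (hne _ p.2.2.2.1) (hnc _ p.2.2.2.2)⟩
  have hf : Function.Injective f := by
    rintro (_ | ⟨⟨x, hx⟩, ⟨t, ht⟩⟩) (_ | ⟨⟨y, hy⟩, ⟨w, hw⟩⟩) e
    · rfl
    · exact (hne y hw.2.1 (congrArg Subtype.val e).symm).elim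
    · exact (hne x ht.2.1 (congrArg Subtype.val e)).elim
    · have e' : x * t * x⁻¹ = y * w * y⁻¹ := congrArg Subtype.val e
      have hv := M.mul_mem (M.inv_mem hy) hx
      have e1 : w = (y⁻¹ * x) * t * (y⁻¹ * x)⁻¹ := by
        calc w = y⁻¹ * (y * w * y⁻¹) * y := by group
          _ = _ := by rw [← e']; group
      have hwN : w ∉ N := fun e => hw.2.2 (h.G1 (h.sqz hw.1) hw.2.1 ((smul_one_iff w).2 e))
      have hc := isConj_conj (IsConj.refl z) (y⁻¹ * x)
      have hm' : (y⁻¹ * x) * z * (y⁻¹ * x)⁻¹ ∈ N :=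
        N.mul_mem (N.mul_mem (h.le hv) h.zN) (N.inv_mem (h.le hv))
      have e2 : w * ((y⁻¹ * x) * z * (y⁻¹ * x)⁻¹) = ((y⁻¹ * x) * z * (y⁻¹ * x)⁻¹) * w := by
        rw [e1]
        calc _ = (y⁻¹ * x) * (t * z) * (y⁻¹ * x)⁻¹ := by group
          _ = _ := by rw [ht.1]; group
      have e3 := h.D_comm (h.sqz hw.1) hwN h.zN h.zz h.z1 hw.1 hm' (by
        rw [e2, mul_assoc, h.sqz hw.1, mul_one]
        exact hm')
      have e4 := h.invol_eq h.zN h.zz h.z1 hm' (sq_of_isConj h.zz hc) (ne_of_isConj h.z1 hc) e3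
      have e5 : y⁻¹ * x = 1 := h.eq_one hv h.zz h.z1 (by
        conv_lhs => rw [e4]
        group)
      rw [e5, one_mul, inv_one, mul_one] at e1
      rw [inv_mul_eq_one] at e5
      subst e1 e5
      rfl
  let π : h.K → G ⧸ N := fun k => ((k : G) : G ⧸ N)
  have hπ : Function.Injective π := fun a b e => by
    have := h.K_inf (h.K.mul_mem (h.K.inv_mem a.2) b.2) (QuotientGroup.eq.1 e)
    exact Subtype.ext (inv_mul_eq_one.1 this)
  have c1 := Nat.card_le_card_of_injective f hf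
  have c2 := Nat.card_le_card_of_injective π hπ
  have c3 : Nat.card (Option (M × {t : G // t * z = z * t ∧ t ≠ 1 ∧ ¬ IsConj z t})) =
      (s + 1) * (s + 1) := by
    rw [Finite.card_option, Nat.card_prod, hm, hj]
    ring
  have hfb := hf.bijective_of_nat_card_le (by omega)
  have hπb := hπ.bijective_of_nat_card_le (by omega)
  have hK2 : ∀ k ∈ h.K, k * k = 1 := fun k hk => by
    obtain ⟨_ | ⟨x, t⟩, e⟩ := hfb.2 ⟨k, hk⟩
    · have e' : (1 : G) = k := congrArg Subtype.val e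
      rw [← e', one_mul]
    · have e' : (x : G) * t * (x : G)⁻¹ = k := congrArg Subtype.val e
      rw [← e']
      exact hsq _ (h.sqz t.2.1)
  obtain ⟨d, hd⟩ := h.exists_pow
  rw [hq] at hd
  have hd1 : d ≠ 0 := by
    rintro rfl
    omega
  have hKn := h.K_normal
  have hcyc : IsCyclic M := by
    have : Nontrivial h.K := Finite.one_lt_card_iff_nontrivial.1 (by nlinarith)
    have hφ : H82.FPF (H2.conjAut (A := M) (K := h.K) Subgroup.le_normalizer_of_normal) := by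
      intro x hx k e
      have e' : (x : G) * k * (x : G)⁻¹ = k := congrArg Subtype.val e
      refine Subtype.ext (h.odd x x.2 (fun e => hx (Subtype.ext e)) k (hK2 k k.2) ?_)
      conv_lhs => rw [← e']
      group
    exact hφ.intFPF.isCyclic_of_comm fun a b => Subtype.ext (h.comm a.2 b.2)
  refine ⟨d, h.K, by omega, hKn, ⟨⟨⟨fun a b => Subtype.ext ?_⟩⟩, fun a ha => by
    rw [pow_two, hK2 a ha]⟩, ?_, ?_, ?_, ?_⟩
  · show (a : G) * b = b * a
    rw [← inv_eq (hK2 _ (h.K.mul_mem a.2 b.2)), mul_inv_rev, inv_eq (hK2 _ a.2),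
      inv_eq (hK2 _ b.2)]
  · rw [two_mul, pow_add, ← hd]
    omega
  · rw [eq_bot_iff]
    exact fun n hn => h.K_inf hn.1 hn.2
  · rw [eq_top_iff]
    intro g _
    obtain ⟨k, hk⟩ := hπb.2 (g : G ⧸ N)
    rw [← mul_inv_cancel_left (k : G) g]
    exact Subgroup.mul_mem_sup k.2 (QuotientGroup.eq.1 hk)
  · obtain ⟨⟨r, hr⟩, hgen⟩ := hcyc.exists_generator
    have hmem : ∀ x, x ∈ M ↔ ∃ i : ℤ, x = r ^ i := fun x => ⟨fun hx => by
      obtain ⟨i, hi⟩ := hgen ⟨x, hx⟩
      exact ⟨i, (congrArg Subtype.val hi).symm⟩, by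
      rintro ⟨i, rfl⟩
      exact M.zpow_mem hr i⟩
    refine H41.nonempty_mulEquiv_dihedral (a := r) (b := z) (by positivity) ?_ h.zz
      (by rw [inv_eq h.zz, h.invz hr]) (fun e => h.z_notMem (Subgroup.zpowers_le.2 hr e))
      fun g => ⟨fun hg => ?_, ?_⟩
    · have := orderOf_eq_card_of_forall_mem_zpowers hgen
      rw [← Subgroup.orderOf_coe] at this
      rw [this, hm, ← hd]
    · obtain ⟨x, hx, c, hc, hcz, rfl⟩ := h.fac g hg
      obtain ⟨i, rfl⟩ := (hmem x).1 hx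
      rcases h.two c hc hcz with rfl | rfl
      · exact ⟨i, Or.inl (mul_one _)⟩
      · exact ⟨i, Or.inr rfl⟩
    · rintro ⟨i, rfl | rfl⟩
      · exact h.le (M.zpow_mem hr i)
      · exact N.mul_mem (h.le (M.zpow_mem hr i)) h.zN

theorem caseB (h : HypB M N z) :
    (∃ (F : Type) (_ : Field F) (_ : Fintype F) (e : ℕ), 1 < e ∧ Fintype.card F = 2 ^ e ∧
      IsCyclic M ∧ Nat.card M = 2 ^ e + 1 ∧
      Nonempty (G ≃* Matrix.ProjectiveSpecialLinearGroup (Fin 2) F)) ∨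
    ∃ (d : ℕ) (E : Subgroup G), 1 ≤ d ∧ E.Normal ∧ Cfsg.IsElementaryAbelian 2 E ∧
      Nat.card E = 2 ^ (2 * d) ∧ E ⊓ N = ⊥ ∧ E ⊔ N = ⊤ ∧
      Nonempty (N ≃* DihedralGroup (2 ^ d + 1)) := by
  have h1 := h.card_pts
  have h2 := h.card_pts'
  have h3 := h.card_fix
  have h4 := h.card_split
  rw [h.card_E, h3] at h4
  rw [h3, h1] at h2
  obtain ⟨b, hb⟩ := h.exists_fix
  have hs : 1 ≤ Nat.card {β : G ⧸ N // β ≠ ((1 : G) : G ⧸ N) ∧ z • β = β} :=
    Nat.card_pos_iff.2 ⟨⟨⟨b, hb⟩⟩, inferInstance⟩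
  rcases arith h2.symm h4 hs ((Subgroup.one_lt_card_iff_ne_bot M).2 h.ne_bot) with
    ⟨e1, e2⟩ | ⟨e1, e2, e3⟩
  · exact Or.inl (h.caseB1 (by omega) (by omega) e2)
  · exact Or.inr (h.caseB2 hs h3 e1 e2 e3)

end HypB

end H79.TC
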